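import Cfsg.Agent.Lib.Helper61.QB.DefsG
import Cfsg.Agent.Lib.Lead.Cores

set_option autoImplicit false

namespace Cfsg.Agent.Lib.Helper16.QB

open Cfsg.Agent.Lib.Helper61.QB

universe u

variable {G : Type u} [Group G] [Finite G] {q : ℕ} [Fact q.Prime]

/-- [A1] -/
theorem qlength_beta {p : ℕ} (hp : p.Prime) (hpq : p ≠ q) (Q : Sylow q G)
    (hn : (Cfsg.pCore p G ⊔ (Q : Subgroup G)).Normal) :
    ∃ K L : Subgroup G, K.Normal ∧ L.Normal ∧ K ≤ L ∧ (Nat.card K).Coprime q ∧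
      (∃ m : ℕ, K.relIndex L = q ^ m) ∧ L.index.Coprime q := by
  haveI := Fact.mk hp
  have hq : q.Prime := Fact.out
  obtain ⟨k, hk⟩ := (IsPGroup.iff_card (p := p)).mp (Cfsg.Agent.Lib.Lead.pCore_isPGroup p G)
  obtain ⟨m, hm⟩ := (IsPGroup.iff_card (p := q)).mp Q.isPGroup'
  refine ⟨Cfsg.pCore p G, Cfsg.pCore p G ⊔ (Q : Subgroup G), inferInstance, hn, le_sup_left, ?_, ?_,
    ?_⟩
  · rw [hk]
    exact Nat.Coprime.pow_left k ((Nat.coprime_primes hp hq).mpr hpq)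
  · rw [Subgroup.relIndex_sup_left]
    have h1 : (Cfsg.pCore p G).relIndex (Q : Subgroup G) ∣ q ^ m := by
      rw [← hm]; exact Subgroup.relIndex_dvd_card _ _
    obtain ⟨j, -, hj⟩ := (Nat.dvd_prime_pow hq).mp h1
    exact ⟨j, hj⟩
  · have h1 : (Cfsg.pCore p G ⊔ (Q : Subgroup G)).index ∣ (Q : Subgroup G).index :=
      Subgroup.index_dvd_of_le le_sup_right
    have h2 : (Q : Subgroup G).index.Coprime q := by
      rw [Nat.coprime_comm, Nat.Prime.coprime_iff_not_dvd hq]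
      exact Q.not_dvd_index
    exact Nat.Coprime.coprime_dvd_left h1 h2

/-- [A2] -/
theorem qlength_alpha (Q : Sylow q G) (hn : (Q : Subgroup G).Normal) :
    ∃ K L : Subgroup G, K.Normal ∧ L.Normal ∧ K ≤ L ∧ (Nat.card K).Coprime q ∧
      (∃ m : ℕ, K.relIndex L = q ^ m) ∧ L.index.Coprime q := by
  have hq : q.Prime := Fact.out
  obtain ⟨m, hm⟩ := (IsPGroup.iff_card (p := q)).mp Q.isPGroup'
  refine ⟨⊥, Q, inferInstance, hn, bot_le, by simp,
    ⟨m, by rw [Subgroup.relIndex_bot_left]; exact hm⟩, ?_⟩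
  rw [Nat.coprime_comm, Nat.Prime.coprime_iff_not_dvd hq]
  exact Q.not_dvd_index

end Cfsg.Agent.Lib.Helper16.QB
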