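import Cfsg.Agent.Lib.Helper16.QB.GB
import Cfsg.Agent.Lib.Helper54.QB.B2
import Cfsg.Agent.Lib.Helper54.QB.G1a
import Cfsg.Agent.Lib.Helper54.QB.G1b

set_option autoImplicit false

namespace Cfsg.Agent.Lib.Helper16.QB

open Cfsg.Agent.Lib.Helper61.QB

universe u

variable {G : Type u} [Group G] [Finite G] {q : ℕ} [Fact q.Prime]

/-- [G2] -/
theorem case_alpha (h : ∀ x : G, IsQ q x → ∃ a : ℕ, idx x = q ^ a) (Q : Sylow q G) :
    (Q : Subgroup G).Normal ∧ ∃ N : Subgroup G, N.Normal ∧ N.IsComplement' (Q : Subgroup G) :=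
  case_alpha_aux (fun x hx _ ha => Cfsg.Agent.Lib.Helper54.QB.mem_pCore_of_index_pow x hx ha) h Q

/-- [B1] -/
theorem normal_abelian_of_pCore_eq_bot {p : ℕ} (hp : p.Prime) (hpq : p ≠ q)
    (hcore : Cfsg.pCore p G = ⊥) (h : ∀ x : G, IsQ q x → ∃ a : ℕ, idx x = p ^ a) (Q : Sylow q G) :
    (Q : Subgroup G).Normal ∧ IsMulCommutative (Q : Subgroup G) :=
  normal_abelian_of_pCore_eq_bot_aux Cfsg.Agent.Lib.Helper54.QB.commute_pCore_of_coprime hp hpq hcore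
    h Q

/-- [B3] -/
theorem case_beta {p : ℕ} (hp : p.Prime) (hpq : p ≠ q)
    (h : ∀ x : G, IsQ q x → ∃ a : ℕ, idx x = p ^ a) (Q : Sylow q G) :
    IsMulCommutative (Q : Subgroup G) ∧ (Cfsg.pCore p G ⊔ (Q : Subgroup G)).Normal := by
  haveI := Fact.mk hp
  have hq : q.Prime := Fact.out
  set N := Cfsg.pCore p G with hN
  have hcore : Cfsg.pCore p (G ⧸ N) = ⊥ := Cfsg.Agent.Lib.Lead.pCore_quotient_pCore p G
  have hsurj : Function.Surjective (QuotientGroup.mk' N) := QuotientGroup.mk'_surjective N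
  have hK : ∀ y : G ⧸ N, IsQ q y → ∃ a : ℕ, idx y = p ^ a := by
    intro y hy
    obtain ⟨x, hx, rfl⟩ := Cfsg.Agent.Lib.Helper54.QB.exists_lift_q N y hy
    obtain ⟨a, ha⟩ := h x hx
    have h1 := Cfsg.Agent.Lib.Helper97.index_centralizer_map_dvd (QuotientGroup.mk' N) hsurj x
    rw [show (Subgroup.centralizer ({x} : Set G)).index = p ^ a from ha] at h1
    obtain ⟨j, -, hj⟩ := (Nat.dvd_prime_pow hp).mp h1
    exact ⟨j, hj⟩
  obtain ⟨hn', hab'⟩ := normal_abelian_of_pCore_eq_bot hp hpq hcore hK (Q.mapSurjective hsurj)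
  rw [Sylow.coe_mapSurjective] at hn' hab'
  have hinf : (Q : Subgroup G) ⊓ N = ⊥ := by
    apply Subgroup.inf_eq_bot_of_coprime
    obtain ⟨k, hk⟩ := (IsPGroup.iff_card (p := p)).mp (Cfsg.Agent.Lib.Lead.pCore_isPGroup p G)
    obtain ⟨m, hm⟩ := (IsPGroup.iff_card (p := q)).mp Q.isPGroup'
    rw [hm, hN, hk]
    exact Nat.Coprime.pow _ _ ((Nat.coprime_primes hq hp).mpr hpq.symm)
  constructor
  · refine ⟨⟨fun a b => ?_⟩⟩
    have h1 := hab'.is_comm.comm ⟨QuotientGroup.mk' N a.1, Subgroup.mem_map_of_mem _ a.2⟩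
      ⟨QuotientGroup.mk' N b.1, Subgroup.mem_map_of_mem _ b.2⟩
    have h2 : QuotientGroup.mk' N (a.1 * b.1) = QuotientGroup.mk' N (b.1 * a.1) := by
      rw [map_mul, map_mul]
      exact congrArg Subtype.val h1
    have h3 : (a.1 * b.1)⁻¹ * (b.1 * a.1) ∈ N := QuotientGroup.eq.mp h2
    have h4 : (a.1 * b.1)⁻¹ * (b.1 * a.1) ∈ (Q : Subgroup G) ⊓ N :=
      Subgroup.mem_inf.mpr ⟨Subgroup.mul_mem _ (Subgroup.inv_mem _ (Subgroup.mul_mem _ a.2 b.2))
        (Subgroup.mul_mem _ b.2 a.2), h3⟩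
    rw [hinf, Subgroup.mem_bot] at h4
    apply Subtype.ext
    exact (inv_mul_eq_one.mp h4)
  · have h1 : N ⊔ (Q : Subgroup G) =
        ((Q : Subgroup G).map (QuotientGroup.mk' N)).comap (QuotientGroup.mk' N) := by
      rw [Subgroup.comap_map_eq, QuotientGroup.ker_mk', sup_comm]
    rw [h1]
    exact hn'.comap _

end Cfsg.Agent.Lib.Helper16.QB
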