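import Cfsg.Agent.Lib.Helper16.QB.GB
import Cfsg.Agent.Lib.Helper8.QB.P5

set_option autoImplicit false

namespace Cfsg.Agent.Lib.Helper16.QB

open Cfsg.Agent.Lib.Helper61.QB

universe u

variable {G : Type u} [Group G] [Finite G] {q : ℕ} [Fact q.Prime]

/-- [G3a] -/
theorem single_prime (hB : Baer q G) (hβ : ∀ x : G, IsQ q x → (idx x).Coprime q) :
    ∃ p : ℕ, p.Prime ∧ p ≠ q ∧ ∀ x : G, IsQ q x → ∃ a : ℕ, idx x = p ^ a :=
  single_prime_aux (fun x y hx hy _ _ _ _ hr hs hrs hrq hsq hxi hyi ha hb =>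
    Cfsg.Agent.Lib.Helper8.QB.pair_false hB x y hx hy hr hs hrs hrq hsq hxi hyi ha hb) hB hβ

end Cfsg.Agent.Lib.Helper16.QB
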