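import Cfsg.Agent.Lib.Helper61.QB.DefsG
import Cfsg.Agent.Lib.Lead.Cores
import Cfsg.Agent.Lib.Helper97.KazarinCore
import Cfsg.Agent.S4126

set_option autoImplicit false

namespace Cfsg.Agent.Lib.Helper16.QB

open Cfsg.Agent.Lib.Helper61.QB

universe u

variable {G : Type u} [Group G] [Finite G] {q : ℕ} [Fact q.Prime]

theorem isQ_of_mem {H : Subgroup G} (hH : IsPGroup q H) {x : G} (hx : x ∈ H) : IsQ q x := by
  obtain ⟨k, hk⟩ := hH ⟨x, hx⟩
  have h1 : x ^ q ^ k = 1 := congrArg Subtype.val hk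
  obtain ⟨j, -, hj⟩ := (Nat.dvd_prime_pow Fact.out).mp (orderOf_dvd_of_pow_eq_one h1)
  exact ⟨j, hj⟩

/-- [G2], with G1a as hypothesis -/
theorem case_alpha_aux
    (hG1a : ∀ x : G, IsQ q x → ∀ a : ℕ, idx x = q ^ a → x ∈ Cfsg.pCore q G)
    (h : ∀ x : G, IsQ q x → ∃ a : ℕ, idx x = q ^ a) (Q : Sylow q G) :
    (Q : Subgroup G).Normal ∧ ∃ N : Subgroup G, N.Normal ∧ N.IsComplement' (Q : Subgroup G) := by
  have hle : (Q : Subgroup G) ≤ Cfsg.pCore q G := by
    intro x hx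
    have hxq := isQ_of_mem Q.isPGroup' hx
    obtain ⟨a, ha⟩ := h x hxq
    exact hG1a x hxq a ha
  have heq : (Q : Subgroup G) = Cfsg.pCore q G :=
    le_antisymm hle (Cfsg.Agent.Lib.Lead.pCore_le_sylow Q)
  have hn : (Q : Subgroup G).Normal := by rw [heq]; infer_instance
  refine ⟨hn, ?_⟩
  obtain ⟨P', N, hN, hc⟩ := Cfsg.Agent.S4126.result (G := G) q (by
    intro x hx
    rcases hx with hx | ⟨h2, hx⟩
    · exact h x ⟨1, by rw [hx, pow_one]⟩
    · exact h x ⟨2, by rw [hx, h2]; norm_num⟩)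
  haveI := Sylow.unique_of_normal Q hn
  have : P' = Q := Subsingleton.elim _ _
  rw [this] at hc
  exact ⟨N, hN, hc⟩

/-- [G3a], with P5 as hypothesis -/
theorem single_prime_aux
    (hP5 : ∀ (x y : G), IsQ q x → IsQ q y → ∀ {r s a b : ℕ}, r.Prime → s.Prime → r ≠ s → r ≠ q →
      s ≠ q → idx x = r ^ a → idx y = s ^ b → a ≠ 0 → b ≠ 0 → False)
    (hB : Baer q G) (hβ : ∀ x : G, IsQ q x → (idx x).Coprime q) :
    ∃ p : ℕ, p.Prime ∧ p ≠ q ∧ ∀ x : G, IsQ q x → ∃ a : ℕ, idx x = p ^ a := by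
  have hq : q.Prime := Fact.out
  have hneq : ∀ x : G, IsQ q x → ∀ r a : ℕ, idx x = r ^ a → a ≠ 0 → r ≠ q := by
    intro x hx r a hi ha hr
    have h1 := hβ x hx
    rw [hi, hr] at h1
    have h2 : q ∣ Nat.gcd (q ^ a) q := Nat.dvd_gcd (dvd_pow_self q ha) dvd_rfl
    rw [h1] at h2
    exact hq.one_lt.ne' (Nat.dvd_one.mp h2)
  by_cases hall : ∀ x : G, IsQ q x → idx x = 1
  · by_cases h2 : q = 2
    · exact ⟨3, Nat.prime_three, by omega, fun x hx => ⟨0, by rw [hall x hx, pow_zero]⟩⟩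
    · exact ⟨2, Nat.prime_two, fun h => h2 h.symm, fun x hx => ⟨0, by rw [hall x hx, pow_zero]⟩⟩
  · push_neg at hall
    obtain ⟨x0, hx0, hne⟩ := hall
    obtain ⟨r, a, hr, ha⟩ := hB x0 hx0
    have ha0 : a ≠ 0 := by
      rintro rfl
      exact hne (by rw [ha, pow_zero])
    have hrq := hneq x0 hx0 r a ha ha0
    refine ⟨r, hr, hrq, fun y hy => ?_⟩
    obtain ⟨s, b, hs, hb⟩ := hB y hy
    by_cases hb0 : b = 0
    · exact ⟨0, by rw [hb, hb0, pow_zero, pow_zero]⟩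
    by_cases hsr : s = r
    · exact ⟨b, by rw [hb, hsr]⟩
    · exact (hP5 x0 y hx0 hy hr hs (fun h => hsr h.symm) hrq (hneq y hy s b hb hb0) ha hb ha0
        hb0).elim

/-- a `q`-element all of whose conjugates commute lies in `O_q(G)`. -/
theorem mem_pCore_of_commute_conj (x : G) (hx : IsQ q x)
    (hc : ∀ g h : G, Commute (g * x * g⁻¹) (h * x * h⁻¹)) : x ∈ Cfsg.pCore q G := by
  obtain ⟨k, hk⟩ := hx
  set S : Set G := Group.conjugatesOfSet ({x} : Set G) with hS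
  have hSmem : ∀ y ∈ S, ∃ g : G, y = g * x * g⁻¹ := by
    intro y hy
    rw [hS, Group.mem_conjugatesOfSet_iff] at hy
    obtain ⟨b, hb, hconj⟩ := hy
    rw [Set.mem_singleton_iff] at hb
    obtain ⟨c, hc'⟩ := isConj_iff.mp hconj
    exact ⟨c, by rw [← hc', hb]⟩
  have hcomm : ∀ y ∈ Subgroup.closure S, ∀ z ∈ Subgroup.closure S, Commute y z := by
    intro y hy z hz
    induction hy, hz using Subgroup.closure_induction₂ with
    | mem a b ha hb =>
      obtain ⟨g, rfl⟩ := hSmem a ha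
      obtain ⟨h, rfl⟩ := hSmem b hb
      exact hc g h
    | one_left => exact Commute.one_left _
    | one_right => exact Commute.one_right _
    | mul_left _ _ _ _ _ _ h1 h2 => exact h1.mul_left h2
    | mul_right _ _ _ _ _ _ h1 h2 => exact h1.mul_right h2
    | inv_left _ _ _ _ h1 => exact h1.inv_left
    | inv_right _ _ _ _ h1 => exact h1.inv_right
  have hpow : ∀ y ∈ Subgroup.closure S, y ^ q ^ k = 1 := by
    intro y hy
    induction hy using Subgroup.closure_induction with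
    | mem a ha =>
      obtain ⟨g, rfl⟩ := hSmem a ha
      rw [conj_pow, ← hk, pow_orderOf_eq_one]
      group
    | one => exact one_pow _
    | mul a b ha hb h1 h2 => rw [(hcomm a ha b hb).mul_pow, h1, h2, one_mul]
    | inv a ha h1 => rw [inv_pow, h1, inv_one]
  have hN : IsPGroup q (Subgroup.normalClosure ({x} : Set G)) := by
    intro y
    exact ⟨k, Subtype.ext (hpow y.1 y.2)⟩
  exact Cfsg.Agent.Lib.Lead.le_pCore Subgroup.normalClosure_normal hN
    (Subgroup.subset_normalClosure (Set.mem_singleton x))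

/-- [B1], with G1b as hypothesis -/
theorem normal_abelian_of_pCore_eq_bot_aux
    (hG1b : ∀ x : G, (idx x).Coprime q → ∀ y ∈ Cfsg.pCore q G, x * y = y * x)
    {p : ℕ} (hp : p.Prime) (hpq : p ≠ q)
    (hcore : Cfsg.pCore p G = ⊥) (h : ∀ x : G, IsQ q x → ∃ a : ℕ, idx x = p ^ a) (Q : Sylow q G) :
    (Q : Subgroup G).Normal ∧ IsMulCommutative (Q : Subgroup G) := by
  have hq : q.Prime := Fact.out
  have hle : (Q : Subgroup G) ≤ Cfsg.pCore q G := by
    intro x hx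
    have hxq := isQ_of_mem Q.isPGroup' hx
    obtain ⟨a, ha⟩ := h x hxq
    exact mem_pCore_of_commute_conj x hxq
      (Cfsg.Agent.Lib.Helper97.commute_conj_of_pCore_eq_bot hp hcore x ha)
  have heq : (Q : Subgroup G) = Cfsg.pCore q G :=
    le_antisymm hle (Cfsg.Agent.Lib.Lead.pCore_le_sylow Q)
  refine ⟨by rw [heq]; infer_instance, ⟨⟨fun x y => ?_⟩⟩⟩
  obtain ⟨a, ha⟩ := h x.1 (isQ_of_mem Q.isPGroup' x.2)
  apply Subtype.ext
  refine hG1b x.1 ?_ y.1 (hle y.2)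
  rw [ha]
  exact Nat.Coprime.pow_left a ((Nat.coprime_primes hp hq).mpr hpq)

end Cfsg.Agent.Lib.Helper16.QB
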