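import Cfsg.Agent.Lib.Helper61.QB.Defs

set_option autoImplicit false

namespace Cfsg.Agent.Lib.Helper16.QB

open Cfsg.Agent.Lib.Helper61.QB

universe u

variable {q p : ℕ} [Fact q.Prime] [Fact p.Prime] {V : Type u} [AddCommGroup V] [Module (ZMod q) V]
  [Finite V]

/-- [N1] -/
theorem irreducible_minpoly [Nontrivial V] (β : V ≃ₗ[ZMod q] V) (hirr : Irr1 β) :
    Irreducible (minpoly (ZMod q) (β : V →ₗ[ZMod q] V)) := by
  set T : V →ₗ[ZMod q] V := (β : V →ₗ[ZMod q] V) with hT
  haveI : Module.Finite (ZMod q) V := Module.Finite.of_finite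
  have hint : IsIntegral (ZMod q) T := Algebra.IsIntegral.isIntegral T
  have hne : minpoly (ZMod q) T ≠ 0 := minpoly.ne_zero hint
  have hcomm : ∀ f : Polynomial (ZMod q), ∀ w : V,
      Polynomial.aeval T f (T w) = T (Polynomial.aeval T f w) := by
    intro f w
    have h1 : Polynomial.aeval T f * T = T * Polynomial.aeval T f := by
      have hX : Polynomial.aeval T (Polynomial.X : Polynomial (ZMod q)) = T := by simp
      calc Polynomial.aeval T f * T
          = Polynomial.aeval T f * Polynomial.aeval T (Polynomial.X : Polynomial (ZMod q)) := by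
            rw [hX]
        _ = Polynomial.aeval T (Polynomial.X : Polynomial (ZMod q)) * Polynomial.aeval T f := by
            rw [← map_mul, mul_comm, map_mul]
        _ = T * Polynomial.aeval T f := by rw [hX]
    exact congrArg (fun L : V →ₗ[ZMod q] V => L w) h1
  have key : ∀ f g : Polynomial (ZMod q), minpoly (ZMod q) T = f * g →
      Polynomial.aeval T f = 0 → IsUnit g := by
    intro f g hfg hf
    obtain ⟨c, hc⟩ := minpoly.dvd (ZMod q) T hf
    have hf0 : f ≠ 0 := by
      rintro rfl
      rw [zero_mul] at hfg
      exact hne hfg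
    rw [hfg, mul_assoc] at hc
    have h1 : g * c = 1 := by
      have : f * 1 = f * (g * c) := by rw [mul_one]; exact hc
      exact (mul_left_cancel₀ hf0 this).symm
    exact IsUnit.of_mul_eq_one _ h1
  rw [irreducible_iff]
  refine ⟨minpoly.not_isUnit _ _, ?_⟩
  intro f g hfg
  have hprod : Polynomial.aeval T f * Polynomial.aeval T g = 0 := by
    rw [← map_mul, ← hfg, minpoly.aeval]
  have hinv : ∀ w ∈ LinearMap.ker (Polynomial.aeval T f), β w ∈ LinearMap.ker (Polynomial.aeval T f) := by
    intro w hw
    rw [LinearMap.mem_ker] at hw ⊢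
    have := hcomm f w
    rw [hw, map_zero] at this
    exact this
  rcases hirr _ hinv with h | h
  · left
    have hg : Polynomial.aeval T g = 0 := by
      ext v
      have h1 : Polynomial.aeval T f (Polynomial.aeval T g v) = 0 :=
        congrArg (fun L : V →ₗ[ZMod q] V => L v) hprod
      have h2 : Polynomial.aeval T g v ∈ LinearMap.ker (Polynomial.aeval T f) := h1
      rw [h, Submodule.mem_bot] at h2
      simpa using h2
    exact key g f (by rw [hfg, mul_comm]) hg
  · right
    exact key f g hfg (LinearMap.ker_eq_top.mp h)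

end Cfsg.Agent.Lib.Helper16.QB
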