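import Cfsg.Agent.Lib.Helper61.QB.Defs

set_option autoImplicit false

namespace Cfsg.Agent.Lib.Helper16.QB

open Cfsg.Agent.Lib.Helper61.QB

variable {q : ℕ} [Fact q.Prime]

/-- [N2] -/
theorem root_eq_frobenius_pow {K : Type*} [Field K] [Finite K] [Algebra (ZMod q) K] (r y : K)
    (hy : Polynomial.aeval y (minpoly (ZMod q) r) = 0) : ∃ j : ℕ, y = r ^ (q ^ j) := by
  haveI : Module.Finite (ZMod q) K := Module.Finite.of_finite
  haveI : Algebra.IsAlgebraic (ZMod q) K := Algebra.IsAlgebraic.of_finite _ _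
  haveI : IsGalois (ZMod q) K := inferInstance
  obtain ⟨σ, hσ⟩ := minpoly.exists_algEquiv_of_root' (K := ZMod q) (L := K) (x := y) (y := r)
    (Algebra.IsAlgebraic.isAlgebraic r) hy
  obtain ⟨n, hn⟩ := (FiniteField.bijective_frobeniusAlgEquivOfAlgebraic_pow (ZMod q) K).2 σ
  refine ⟨n.1, ?_⟩
  rw [← hσ, ← hn]
  simp only [AlgEquiv.coe_pow, FiniteField.coe_frobeniusAlgEquivOfAlgebraic_iterate, ZMod.card]

end Cfsg.Agent.Lib.Helper16.QB
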