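import Cfsg.Agent.Lib.Helper61.QB.Defs

set_option autoImplicit false

namespace Cfsg.Agent.Lib.Helper16.QB

private theorem N3_sum_mod (x : ℕ) (hx : x % 2 = 1) (j : ℕ) :
    (∑ i ∈ Finset.range j, x ^ i) % 2 = j % 2 := by
  induction j with
  | zero => simp
  | succ n ih =>
    rw [Finset.sum_range_succ, Nat.add_mod, ih, Nat.pow_mod, hx, one_pow]
    omega

/-- [N3] -/
theorem arith_two_pow {Q m k j : ℕ} (hm : 2 ≤ m) (hk : k % 4 = 3) (h1 : k ≡ Q ^ j [MOD 2 ^ m])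
    (h2 : k * k ≡ 1 [MOD 2 ^ m]) : 2 ^ m ∣ Q ^ 2 - 1 := by
  have h4 : 4 ∣ 2 ^ m := by
    obtain ⟨c, rfl⟩ := Nat.exists_eq_add_of_le hm
    exact ⟨2 ^ c, by rw [pow_add]; norm_num⟩
  have h3 : Q ^ j % 4 = 3 := by
    have := h1.of_dvd h4
    unfold Nat.ModEq at this
    omega
  have hsq : ∀ x : ℕ, x ^ 2 % 4 = 0 ∨ x ^ 2 % 4 = 1 := by
    intro x
    have hx : x % 4 = 0 ∨ x % 4 = 1 ∨ x % 4 = 2 ∨ x % 4 = 3 := by omega
    rcases hx with h | h | h | h <;> simp [Nat.pow_mod, h]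
  have hjodd : j % 2 = 1 := by
    by_contra hj
    obtain ⟨i, rfl⟩ : ∃ i, j = i * 2 := ⟨j / 2, by omega⟩
    rw [pow_mul] at h3
    rcases hsq (Q ^ i) with h | h <;> omega
  have hQodd : Q % 2 = 1 := by
    by_contra hQ
    have hQ' : Q % 2 = 0 := by omega
    have hj0 : j ≠ 0 := by rintro rfl; simp at hjodd
    have : Q ^ j % 2 = 0 := by
      simp [Nat.pow_mod, hQ', zero_pow hj0]
    omega
  have hQ2odd : Q ^ 2 % 2 = 1 := by rw [Nat.pow_mod, hQodd]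
  have hS := N3_sum_mod (Q ^ 2) hQ2odd j
  rw [hjodd] at hS
  -- `(Q^2)^j ≡ 1`
  have h5 : (Q ^ 2) ^ j ≡ 1 [MOD 2 ^ m] := by
    have : (Q ^ 2) ^ j = Q ^ j * Q ^ j := by rw [← pow_mul, mul_comm, pow_mul, sq]
    rw [this]
    exact ((h1.mul h1).symm).trans h2
  have hpos : 1 ≤ (Q ^ 2) ^ j := Nat.one_le_iff_ne_zero.mpr (by
    intro h0
    have : (Q ^ 2) ^ j % 2 = 1 := by simp [Nat.pow_mod, hQ2odd, one_pow]
    omega)
  have h6 : 2 ^ m ∣ (Q ^ 2) ^ j - 1 := (Nat.modEq_iff_dvd' hpos).mp h5.symm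
  have hQpos : 1 ≤ Q ^ 2 := Nat.one_le_iff_ne_zero.mpr (by intro h0; omega)
  have h7 : (∑ i ∈ Finset.range j, (Q ^ 2) ^ i) * (Q ^ 2 - 1) = (Q ^ 2) ^ j - 1 := by
    have := geom_sum_mul ((Q : ℤ) ^ 2) j
    zify [hQpos, hpos]
    exact this
  rw [← h7] at h6
  refine Nat.Coprime.dvd_of_dvd_mul_left ?_ h6
  apply Nat.Coprime.pow_left
  rw [Nat.coprime_two_left]
  exact Nat.odd_iff.mpr hS

end Cfsg.Agent.Lib.Helper16.QB
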