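import Cfsg.Agent.Lib.Helper61.QB.Defs

set_option autoImplicit false

namespace Cfsg.Agent.Lib.Helper16.QB

variable {q : ℕ} [Fact q.Prime]

/-- [N4] -/
theorem natDegree_le_two (μ : Polynomial (ZMod q)) (hμ : Irreducible μ)
    (h : μ ∣ Polynomial.X ^ (q ^ 2) - Polynomial.X) : μ.natDegree ≤ 2 := by
  have h1 : μ ∣ Polynomial.X ^ (Nat.card (ZMod q)) ^ 2 - Polynomial.X := by
    rw [Nat.card_zmod]; exact h
  exact Nat.le_of_dvd (by norm_num) (hμ.natDegree_dvd_of_dvd_X_pow_card_pow_sub_X h1)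

end Cfsg.Agent.Lib.Helper16.QB
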