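import Cfsg.Agent.Lib.Helper16.QB.N1
import Cfsg.Agent.Lib.Helper16.QB.N2
import Cfsg.Agent.Lib.Helper16.QB.N3

set_option autoImplicit false

namespace Cfsg.Agent.Lib.Helper16.QB

open Cfsg.Agent.Lib.Helper61.QB

universe u

variable {q p : ℕ} [Fact q.Prime] [Fact p.Prime] {V : Type u} [AddCommGroup V] [Module (ZMod q) V]
  [Finite V]

private theorem N5a_coe_pow (β : V ≃ₗ[ZMod q] V) (n : ℕ) :
    ((β ^ n : V ≃ₗ[ZMod q] V) : V →ₗ[ZMod q] V) = (β : V →ₗ[ZMod q] V) ^ n := by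
  induction n with
  | zero => rfl
  | succ n ih =>
    rw [pow_succ, pow_succ, ← ih]
    rfl

/-- [N5a] -/
theorem two_pow_dvd [Nontrivial V] (β σ : V ≃ₗ[ZMod q] V) (hirr : Irr1 β) {m k : ℕ} (hm : 2 ≤ m)
    (hβ : orderOf β = 2 ^ m) (hσ : σ * β * σ⁻¹ = β ^ k) (hk : k % 4 = 3)
    (hσ2 : Commute (σ * σ) β) : 2 ^ m ∣ q ^ 2 - 1 := by
  set T : V →ₗ[ZMod q] V := (β : V →ₗ[ZMod q] V) with hT
  haveI : Module.Finite (ZMod q) V := Module.Finite.of_finite
  have hint : IsIntegral (ZMod q) T := Algebra.IsIntegral.isIntegral T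
  set μ := minpoly (ZMod q) T with hμ
  have hμirr : Irreducible μ := irreducible_minpoly β hirr
  have hμmonic : μ.Monic := minpoly.monic hint
  have hμne : μ ≠ 0 := hμmonic.ne_zero
  haveI : Fact (Irreducible μ) := ⟨hμirr⟩
  haveI : Module.Finite (ZMod q) (AdjoinRoot μ) := (AdjoinRoot.powerBasis hμne).finite
  haveI : Finite (AdjoinRoot μ) := Module.finite_of_finite (ZMod q)
  set r : AdjoinRoot μ := AdjoinRoot.root μ with hr
  -- (1)
  have h1 : Polynomial.aeval (T ^ k) μ = 0 := by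
    have e1 : T ^ k = σ.conjAlgEquiv (ZMod q) T := by
      rw [hT, ← N5a_coe_pow, ← hσ]
      rfl
    rw [e1, Polynomial.aeval_algEquiv, AlgHom.comp_apply, hμ, minpoly.aeval, map_zero]
  -- (2)
  have h2 : μ ∣ μ.comp (Polynomial.X ^ k) := by
    apply minpoly.dvd
    rw [Polynomial.aeval_comp]
    simpa using h1
  -- (3)
  have h3 : Polynomial.aeval (r ^ k) μ = 0 := by
    have : Polynomial.aeval r (μ.comp (Polynomial.X ^ k)) = 0 := by
      rw [AdjoinRoot.aeval_eq, AdjoinRoot.mk_eq_zero]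
      exact h2
    rw [Polynomial.aeval_comp] at this
    simpa using this
  -- (4)
  have h4 : minpoly (ZMod q) r = μ := by
    rw [AdjoinRoot.minpoly_root hμne, hμmonic.leadingCoeff]
    simp
  -- (5)
  obtain ⟨j, hj⟩ := root_eq_frobenius_pow r (r ^ k) (by rw [h4]; exact h3)
  -- (6)
  have h6 : orderOf r = orderOf β := by
    rw [orderOf_eq_orderOf_iff]
    intro n
    have a1 : r ^ n = 1 ↔ μ ∣ Polynomial.X ^ n - 1 := by
      rw [← AdjoinRoot.mk_eq_zero, map_sub, map_pow, AdjoinRoot.mk_X, map_one, sub_eq_zero]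
    have a2 : μ ∣ Polynomial.X ^ n - 1 ↔ T ^ n = 1 := by
      rw [hμ, minpoly.dvd_iff]
      simp [sub_eq_zero]
    have a3 : T ^ n = 1 ↔ β ^ n = 1 := by
      rw [hT, ← N5a_coe_pow]
      constructor
      · intro h
        ext v
        exact congrArg (fun L : V →ₗ[ZMod q] V => L v) h
      · intro h
        rw [h]
        rfl
    rw [a1, a2, a3]
  -- (7)
  have h7 : k ≡ q ^ j [MOD 2 ^ m] := by
    have hfin : IsOfFinOrder r := by
      rw [← orderOf_pos_iff, h6, hβ]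
      positivity
    rw [← hβ, ← h6]
    exact hfin.pow_eq_pow_iff_modEq.mp hj
  -- (8)
  have h8 : k * k ≡ 1 [MOD 2 ^ m] := by
    rw [← hβ]
    apply pow_eq_pow_iff_modEq.mp
    rw [pow_one, pow_mul, ← hσ, conj_pow, ← hσ]
    have h9 : σ * σ * β = β * (σ * σ) := hσ2
    calc σ * (σ * β * σ⁻¹) * σ⁻¹ = (σ * σ * β) * σ⁻¹ * σ⁻¹ := by group
      _ = β * (σ * σ) * σ⁻¹ * σ⁻¹ := by rw [h9]
      _ = β := by group
  exact arith_two_pow hm hk h7 h8

end Cfsg.Agent.Lib.Helper16.QB
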