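import Cfsg.Agent.Lib.Helper16.QB.N1
import Cfsg.Agent.Lib.Helper16.QB.N4

set_option autoImplicit false

namespace Cfsg.Agent.Lib.Helper16.QB

open Cfsg.Agent.Lib.Helper61.QB

universe u

variable {q p : ℕ} [Fact q.Prime] [Fact p.Prime] {V : Type u} [AddCommGroup V] [Module (ZMod q) V]
  [Finite V]

private theorem N5b_coe_pow (β : V ≃ₗ[ZMod q] V) (n : ℕ) :
    ((β ^ n : V ≃ₗ[ZMod q] V) : V →ₗ[ZMod q] V) = (β : V →ₗ[ZMod q] V) ^ n := by
  induction n with
  | zero => rfl
  | succ n ih =>
    rw [pow_succ, pow_succ, ← ih]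
    rfl

/-- [N5b] -/
theorem finrank_le_two_of_pow (β : V ≃ₗ[ZMod q] V) (hirr : Irr1 β) (h : β ^ (q ^ 2) = β) :
    Module.finrank (ZMod q) V ≤ 2 := by
  classical
  rcases subsingleton_or_nontrivial V with hsub | hnt
  · rw [Module.finrank_zero_of_subsingleton]; norm_num
  set T : V →ₗ[ZMod q] V := (β : V →ₗ[ZMod q] V) with hT
  haveI : Module.Finite (ZMod q) V := Module.Finite.of_finite
  have hint : IsIntegral (ZMod q) T := Algebra.IsIntegral.isIntegral T
  set μ := minpoly (ZMod q) T with hμ
  have hμirr : Irreducible μ := irreducible_minpoly β hirr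
  have hμmonic : μ.Monic := minpoly.monic hint
  have hdvd : μ ∣ Polynomial.X ^ (q ^ 2) - Polynomial.X := by
    rw [hμ, minpoly.dvd_iff]
    simp only [map_sub, map_pow, Polynomial.aeval_X]
    rw [hT, ← N5b_coe_pow, h, sub_self]
  have hdeg : μ.natDegree ≤ 2 := natDegree_le_two μ hμirr hdvd
  -- `T ^ 2 = a + b T`
  set g := (Polynomial.X ^ 2 : Polynomial (ZMod q)) %ₘ μ with hg
  have hgdeg : g.natDegree ≤ 1 := by
    have h1 : g.natDegree < μ.natDegree :=
      Polynomial.natDegree_modByMonic_lt _ hμmonic (fun h1 => hμirr.not_isUnit (by rw [h1]; exact isUnit_one))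
    omega
  have hgT : Polynomial.aeval T g = T ^ 2 := by
    have h1 := Polynomial.modByMonic_add_div (Polynomial.X ^ 2 : Polynomial (ZMod q)) μ
    have h2 := congrArg (Polynomial.aeval T) h1
    rw [map_add, map_mul, hμ, minpoly.aeval, zero_mul, add_zero] at h2
    rw [hg, hμ, h2]
    simp
  have hg2 := Polynomial.eq_X_add_C_of_natDegree_le_one hgdeg
  obtain ⟨v, hv⟩ := exists_ne (0 : V)
  have hTT : T (T v) = g.coeff 1 • T v + g.coeff 0 • v := by
    have h1 : T (T v) = (T ^ 2) v := by rw [sq]; rfl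
    rw [h1, ← hgT, hg2]
    simp [Polynomial.aeval_def, Algebra.algebraMap_eq_smul_one]
  set W : Submodule (ZMod q) V := Submodule.span (ZMod q) (({v, T v} : Finset V) : Set V) with hW
  have hvW : v ∈ W := Submodule.subset_span (by simp)
  have hTvW : T v ∈ W := Submodule.subset_span (by simp)
  have hinv : ∀ w ∈ W, β w ∈ W := by
    intro w hw
    have hle : W ≤ W.comap T := by
      rw [hW, Submodule.span_le]
      intro x hx
      simp only [Finset.coe_insert, Finset.coe_singleton, Set.mem_insert_iff,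
        Set.mem_singleton_iff] at hx
      rcases hx with rfl | rfl
      · exact hTvW
      · show T (T v) ∈ W
        rw [hTT]
        exact W.add_mem (W.smul_mem _ hTvW) (W.smul_mem _ hvW)
    exact hle hw
  rcases hirr W hinv with h0 | h0
  · exfalso
    rw [h0, Submodule.mem_bot] at hvW
    exact hv hvW
  · have h1 := finrank_span_finset_le_card (R := ZMod q) ({v, T v} : Finset V)
    have h2 : Set.finrank (ZMod q) (({v, T v} : Finset V) : Set V) = Module.finrank (ZMod q) V := by
      show Module.finrank (ZMod q) W = _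
      rw [h0, finrank_top]
    rw [h2] at h1
    exact h1.trans Finset.card_le_two

end Cfsg.Agent.Lib.Helper16.QB
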